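import Groth.Agent.Krr.H471.ChartUnit
import Groth.Agent.Krr.H471.ChartTwist
import Groth.Agent.Krr.H471.PushPerf
import Groth.Agent.Krr.H471.IndepAlg
import Groth.Agent.Krr.H482.PullLambda
import Groth.Agent.Grpsch.PicGrp
import Groth.Agent.S1028

/-!
# Independence of `1, ℓ, …, ℓ^r` over `K(S)` for `π : P ⟶ S` locally `P^r_S`

`π : P ⟶ S` has charts `P^r_A` on which `O1` becomes `O(1)`, `ℓ = [O1]`, and `Rπ_*` maps vector bundles to perfect
complexes.  Then `1, ℓ, …, ℓ^r` are linearly independent over `K(S)` in `K(P)` (on models of these λ-rings).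
-/

set_option autoImplicit false

universe v w u

open CategoryTheory CategoryTheory.Limits AlgebraicGeometry
attribute [local instance] HasDerivedCategory.standard

namespace Groth.Agent.Krr.H471.Indep

open KRR Groth.Agent.Krr.H471.ChartVan Groth.Agent.Krr.H471.ChartTwist Groth.Agent.Krr.H471.PushPerf
  Groth.Agent.Krr.H482.PullLambda

variable {P S : Scheme.{u}} {π : P ⟶ S} {r : ℕ}

/-- `Rπ_* π^* G = G`. -/
theorem nonempty_Rpush_pullback [QuasiCompact π] [QuasiSeparated π] [DCoh.HasRpush π] {O1 N : P.Modules}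
    (h : IsTwist r π O1 1) (i : ((DCoh.tensorBi (X := P)).obj O1).obj N ≅ Coh.structureModule P)
    {G : S.Modules} (hG : FlatMod.IsFinLocFree G) :
    Nonempty ((DCoh.Rpush π).obj (DCoh.inD P ((Scheme.Modules.pullback π).obj G)) ≅ DCoh.inD S G) := by
  have h0 := isTwist_W h i 0
  have e0 : ((DCoh.tensorBi (X := P)).obj (W N 0)).obj ((Scheme.Modules.pullback π).obj G) ≅
    (Scheme.Modules.pullback π).obj G := Ega2.Tens.lunit _
  have h1 : ∀ q : ℕ, 1 ≤ q → IsZero ((Coh.Rpush π q).obj ((Scheme.Modules.pullback π).obj G)) := fun q hq =>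
    (ChartVan.isZero_Rpush h0 Sga67.TensorOps.isFinLocFree_structureModule hG q (Or.inl ⟨hq, by simp⟩)).of_iso
      ((Coh.Rpush π q).mapIso e0.symm)
  obtain ⟨e1⟩ := nonempty_Rpush_inD π h1
  have h2 := ChartUnit.isIso_unit (π := π) (r := r) (fun x => by
    obtain ⟨C, hx, -⟩ := h x
    exact ⟨C, hx⟩) hG
  exact ⟨e1 ≪≫ (DerivedCategory.singleFunctor S.Modules 0).mapIso
    (asIso ((Scheme.Modules.pullbackPushforwardAdjunction π).unit.app G)).symm⟩

/-- `Rπ_* (O1^{-k} ⊗ π^* G) = 0` for `1 ≤ k ≤ r`. -/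
theorem isZero_Rpush_W [QuasiCompact π] [QuasiSeparated π] [DCoh.HasRpush π] {O1 N : P.Modules}
    (h : IsTwist r π O1 1) (i : ((DCoh.tensorBi (X := P)).obj O1).obj N ≅ Coh.structureModule P)
    (hN : FlatMod.IsFinLocFree N) {G : S.Modules} (hG : FlatMod.IsFinLocFree G) (k : ℕ) (h1 : 1 ≤ k) (h2 : k ≤ r) :
    IsZero ((DCoh.Rpush π).obj (DCoh.inD P
      (((DCoh.tensorBi (X := P)).obj (W N k)).obj ((Scheme.Modules.pullback π).obj G)))) :=
  isZero_Rpush_inD π fun q => ChartVan.isZero_Rpush (isTwist_W h i k) (isFinLocFree_W hN k) hG q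
    (Or.inr ⟨by omega, by omega⟩)

section models

variable {KP : Type v} [CommRing KP] [LambdaRing.LambdaOps KP] {PP : LambdaRing.PosStructure KP}
  {φP : SGA6.Kvb P →+ KP} {KS : Type w} [CommRing KS] [LambdaRing.LambdaOps KS]
  {PS : LambdaRing.PosStructure KS} {φS : SGA6.Kvb S →+ KS}

theorem model_W (hKP : IsModel P KP PP φP) {N : P.Modules} (hN : FlatMod.IsFinLocFree N) (k : ℕ) :
    φP (cl P (W N k)) = φP (cl P N) ^ k := by
  induction k with
  | zero => rw [pow_zero]; exact hKP.map_one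
  | succ k ih =>
    rw [pow_succ', ← ih, hKP.map_mul N (W N k) hN (isFinLocFree_W hN k)]
    rfl

/-- Independence of `1, ℓ, …, ℓ^r` over `K(S)`. -/
theorem injective_sum [QuasiCompact π] [QuasiSeparated π] [DCoh.HasRpush π]
    [CompactSpace ↥S] [QuasiSeparatedSpace ↥S] (hS : PerfAux.HasResolutionProperty S)
    (hπ : ∀ E : P.Modules, FlatMod.IsFinLocFree E → DCoh.IsPerfect ((DCoh.Rpush π).obj (DCoh.inD P E)))
    {O1 : P.Modules} (hO1 : FlatMod.IsFinLocFreeOfRank 1 O1) (h : IsTwist r π O1 1)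
    (hKP : IsModel P KP PP φP) (hKS : IsModel S KS PS φS) {g : KS →+ KP} (hg : IsPull π φS φP g) :
    Function.Injective (fun a : Fin (r + 1) → KS => ∑ i : Fin (r + 1), g (a i) * φP (cl P O1) ^ (i : ℕ)) := by
  have hinv := Ega2.QCohLocal.isFinLocFreeOfRank_one_iff.1 hO1
  obtain ⟨N, hN, ⟨i⟩⟩ := Grpsch.PicGrp.exists_inverse hinv
  have hN' : FlatMod.IsFinLocFree N :=
    isFinLocFree_of_rank (Ega2.QCohLocal.isFinLocFreeOfRank_one_iff.2 hN)
  have hO1' : FlatMod.IsFinLocFree O1 := isFinLocFree_of_rank hO1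
  have i' : ((DCoh.tensorBi (X := P)).obj O1).obj N ≅ Coh.structureModule P := i
  obtain ⟨ε, hε⟩ := Groth.Agent.S1028.result S hS
  let eP : SGA6.Kvb P ≃+ KP := AddEquiv.ofBijective φP hKP.bijective
  let eS : SGA6.Kvb S ≃+ KS := AddEquiv.ofBijective φS hKS.bijective
  let θ : KP →+ SGA6.Kperf S := (chi π hπ).comp eP.symm.toAddMonoidHom
  let ρ : KS →+ SGA6.Kperf S := ε.toAddMonoidHom.comp eS.symm.toAddMonoidHom
  have hθ : ∀ E : P.Modules, FlatMod.IsFinLocFree E →
      θ (φP (cl P E)) = KZero.clTr (SGA6.perfP S) ((DCoh.Rpush π).obj (DCoh.inD P E)) := by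
    intro E hE
    have h1 : eP.symm (φP (cl P E)) = cl P E := eP.symm_apply_apply (cl P E)
    change chi π hπ (eP.symm (φP (cl P E))) = _
    rw [h1]
    exact chi_cl π hπ hE
  have hρ : ∀ G : S.Modules, FlatMod.IsFinLocFree G →
      ρ (φS (cl S G)) = KZero.clTr (SGA6.perfP S) (DCoh.inD S G) := by
    intro G hG
    have h1 : eS.symm (φS (cl S G)) = cl S G := eS.symm_apply_apply (cl S G)
    change ε (eS.symm (φS (cl S G))) = _
    rw [h1]
    exact hε G hG
  have hρi : Function.Injective ρ := ε.injective.comp eS.symm.injective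
  have hlm : φP (cl P O1) * φP (cl P N) = 1 := by
    rw [hKP.map_mul O1 N hO1' hN', cl_iso i' (Sga67.LocBasis.isFinLocFree_tensorMod hO1' hN'), hKP.map_one]
  have hpull : ∀ G : S.Modules, FlatMod.IsFinLocFree G →
      FlatMod.IsFinLocFree ((Scheme.Modules.pullback π).obj G) := fun G hG => isFinLocFree_pullback π hG
  refine IndepAlg.injective_sum (pullRingHom hKP hKS hg) (φP (cl P O1)) (φP (cl P N)) hlm r θ ρ hρi ?_ ?_
  · have h1 : θ.comp g = ρ := model_hom_ext hKS fun m G _ hG => by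
      have hG' := isFinLocFree_of_rank hG
      change θ (g (φS (cl S G))) = _
      rw [hg G hG', hθ _ (hpull G hG'), hρ G hG']
      obtain ⟨e⟩ := nonempty_Rpush_pullback h i' hG'
      have hz : (SGA6.perfP S) ((DCoh.Rpush π).obj (DCoh.inD P ((Scheme.Modules.pullback π).obj G))) :=
        hπ _ (hpull G hG')
      exact Sga67.KTrBasic.clTr_iso' e hz (PerfA.PerfLocal.isPerfect_of_iso e hz)
        (isZero_zero _) (PerfA.PerfLocal.isPerfect_of_isZero (isZero_zero _))
    intro x
    exact congr($h1 x)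
  · intro k hk1 hk2
    have h1 : θ.comp ((AddMonoidHom.mulRight (φP (cl P N) ^ k)).comp g) = 0 :=
      model_hom_ext hKS fun m G _ hG => by
        have hG' := isFinLocFree_of_rank hG
        change θ (g (φS (cl S G)) * φP (cl P N) ^ k) = 0
        have hT : FlatMod.IsFinLocFree (((DCoh.tensorBi (X := P)).obj (W N k)).obj
            ((Scheme.Modules.pullback π).obj G)) :=
          Sga67.LocBasis.isFinLocFree_tensorMod (isFinLocFree_W hN' k) (hpull G hG')
        rw [hg G hG', mul_comm, ← model_W hKP hN', hKP.map_mul _ _ (isFinLocFree_W hN' k) (hpull G hG'),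
          hθ _ hT]
        exact Sga67.KTrBasic.clTr_isZero _ (isZero_Rpush_W h i' hN' hG' k hk1 hk2)
    intro x
    exact congr($h1 x)

end models

end Groth.Agent.Krr.H471.Indep
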